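import Cfsg.Agent.CharactersDeep.Extraspecial
import Cfsg.Agent.Characters.GaloisBasic
import Cfsg.Agent.Characters.Brauer

/-!
# Lower bounds of character degrees from extraspecial subgroups (helper668)

`deg_ge` : `K ≤ G` extraspecial of order `q^(2m+1)`, all non-trivial elements of `Z(K)` conjugate in `G`; then a character
of `G` not trivial on `Z(K)` has degree `≥ (q-1) q^m`.
-/

set_option autoImplicit false

namespace Cfsg.Agent.H668.Ly

open Subgroup Cfsg Cfsg.Agent.Characters.Core Cfsg.Agent.CharactersDeep.Extraspecial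
open scoped ComplexConjugate

universe u

theorem deg_ge {G : Type u} [Group G] [Finite G] {q m : ℕ} [hq : Fact q.Prime] (K : Subgroup G)
    (hK : Nat.card K = q ^ (2 * m + 1)) (hZ : Nat.card (center K) = q) (hcomm : commutator K ≤ center K) {f : G}
    (hconj : ∀ z : K, z ∈ center K → z ≠ 1 → IsConj f (z : G)) {χ : G → ℂ} (hχ : IsCharacter G χ)
    (hne : χ f ≠ χ 1) : ∃ n : ℕ, χ 1 = n ∧ (q - 1) * q ^ m ≤ n := by
  classical
  have := Fintype.ofFinite G
  have := Fintype.ofFinite K
  have := Fintype.ofFinite (center K)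
  have hfin : Finite (IrrCharacter K) := finite_irr
  have := Fintype.ofFinite (IrrCharacter K)
  have hres : IsCharacter K (fun k : K => χ k) := Characters.Brauer.isCharacter_restrict hχ K
  obtain ⟨w, hw⟩ := isCharacter_iff.1 hres
  have nsmul_apply : ∀ (n : ℕ) (φ : K → ℂ) (k : K), (n • φ) k = n * φ k := fun n φ k => by
    rw [Pi.smul_apply, nsmul_eq_mul]
  choose c hc _ using fun θ : IrrCharacter K => exists_central_hom θ.2
  choose d hd0 hd using fun θ : IrrCharacter K => isIrr_apply_one θ.2
  have hq1 : 1 < q := hq.out.one_lt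
  -- the degrees
  have hdeg : ∀ θ : IrrCharacter K, c θ ≠ 1 → d θ = q ^ m := by
    intro θ hθ
    have h0 : ∀ x ∉ center K, (θ : K → ℂ) x = 0 := fun x hx =>
      eq_zero_of_notMem_center hcomm (isIrr_isClassFunction θ.2) (fun z => (c θ z : ℂ))
        (fun z hz h1 => by
          refine hom_ne_one_of_prime_card (p := q) hZ (c θ) hθ hz ?_
          exact Units.ext h1) (hc θ) hx
    have h1 := classInner_of_center ((θ : K → ℂ) 1) (c θ) h0 (fun z => by
      have := hc θ 1 z
      rwa [one_mul] at this)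
    rw [classInner_irr_self θ.2, hd θ, Complex.conj_natCast, hZ, hK] at h1
    have h2 : (q : ℂ) ≠ 0 := by exact_mod_cast hq.out.ne_zero
    have h3 : ((q : ℂ) ^ m) ^ 2 = (d θ : ℂ) ^ 2 := by
      push_cast at h1
      rw [pow_succ, pow_mul'] at h1
      field_simp at h1
      linear_combination h1
    have h4 : (q ^ m) ^ 2 = d θ ^ 2 := by exact_mod_cast h3
    exact (Nat.pow_left_injective (by norm_num : (2 : ℕ) ≠ 0) h4).symm
  set a : ℕ := ∑ θ : IrrCharacter K, if c θ = 1 then w θ * d θ else 0 with ha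
  set M : ℕ := ∑ θ : IrrCharacter K, if c θ = 1 then 0 else w θ with hM
  have h1 : χ 1 = a + q ^ m * M := by
    have h2 := congrFun hw 1
    simp only [Finset.sum_apply, nsmul_apply] at h2
    have h3 : χ ((1 : K) : G) = χ 1 := by simp
    rw [h3] at h2
    rw [h2, ha, hM]
    push_cast
    rw [Finset.mul_sum, ← Finset.sum_add_distrib]
    refine Finset.sum_congr rfl fun θ _ => ?_
    rw [hd θ]
    by_cases h : c θ = 1
    · simp [h]
    · rw [hdeg θ h]
      simp [h]
      ring
  have h2 : ∑ z : center K, χ ((z : K) : G) = q * a := by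
    have h3 : ∀ z : center K, χ ((z : K) : G) = ∑ θ : IrrCharacter K, (w θ : ℂ) * (d θ * (c θ z : ℂ)) := by
      intro z
      have h2 := congrFun hw z
      simp only [Finset.sum_apply, nsmul_apply] at h2
      rw [h2]
      refine Finset.sum_congr rfl fun θ _ => ?_
      have := hc θ 1 z
      rw [one_mul] at this
      rw [this, hd θ]
    rw [Finset.sum_congr rfl fun z _ => h3 z, Finset.sum_comm, ha]
    push_cast
    rw [Finset.mul_sum]
    refine Finset.sum_congr rfl fun θ _ => ?_
    rw [← Finset.mul_sum, ← Finset.mul_sum]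
    by_cases h : c θ = 1
    · rw [if_pos h, h]
      simp only [MonoidHom.one_apply, Units.val_one, Finset.sum_const, Finset.card_univ, nsmul_eq_mul, mul_one]
      rw [← Nat.card_eq_fintype_card, hZ]
      ring
    · rw [if_neg h]
      have h4 : ∑ z : center K, ((c θ z : ℂˣ) : ℂ) = 0 := by
        have h5 := sum_hom_units_eq_zero ((Units.coeHom ℂ).comp (c θ)) (fun h6 => h (by
          ext z
          have := DFunLike.congr_fun h6 z
          simpa using this))
        exact h5
      rw [h4]
      ring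
  have h3 : ∑ z : center K, χ ((z : K) : G) = χ 1 + (q - 1) * χ f := by
    rw [← Finset.add_sum_erase _ _ (Finset.mem_univ (1 : center K))]
    have h4 : ∀ z ∈ (Finset.univ : Finset (center K)).erase 1, χ ((z : K) : G) = χ f := by
      intro z hz
      have hz1 : (z : K) ≠ 1 := fun h => Finset.ne_of_mem_erase hz (Subtype.ext h)
      obtain ⟨g, hg⟩ := isConj_iff.1 (hconj z z.2 hz1)
      rw [← hg]
      exact isCharacter_isClassFunction hχ f g
    rw [Finset.sum_congr rfl h4, Finset.sum_const, Finset.card_erase_of_mem (Finset.mem_univ _), Finset.card_univ,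
      ← Nat.card_eq_fintype_card, hZ, nsmul_eq_mul, Nat.cast_sub hq1.le]
    simp
  rw [h2, h1] at h3
  -- `χ(f)` is an integer
  have hq0 : (q : ℂ) - 1 ≠ 0 := by
    intro h
    have h4 : (q : ℂ) = (1 : ℕ) := by push_cast; linear_combination h
    exact hq1.ne' (by exact_mod_cast h4)
  have h4 : ∃ r : ℚ, χ f = r := by
    refine ⟨((q : ℚ) * a - (a + q ^ m * M)) / (q - 1), ?_⟩
    push_cast
    field_simp
    linear_combination -h3
  obtain ⟨s, hs⟩ := Characters.GaloisBasic.exists_int_of_isIntegral (Characters.GaloisBasic.isIntegral_apply hχ f) h4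
  rw [hs] at h3
  have h5 : (q : ℤ) * a = a + q ^ m * M + (q - 1) * s := by exact_mod_cast h3
  have h6 : ((q : ℤ) - 1) ∣ q ^ m * M := ⟨a - s, by linear_combination -h5⟩
  have h7 : IsCoprime ((q : ℤ) - 1) (q ^ m) := by
    refine IsCoprime.pow_right ?_
    exact ⟨-1, 1, by ring⟩
  have h8 : ((q : ℤ) - 1) ∣ M := h7.dvd_of_dvd_mul_left h6
  have h9 : (q - 1) ∣ M := by
    have : ((q - 1 : ℕ) : ℤ) ∣ (M : ℤ) := by
      rw [Nat.cast_sub hq1.le]
      exact_mod_cast h8
    exact_mod_cast this
  have hM0 : M ≠ 0 := by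
    intro h0
    apply hne
    rw [h0] at h5 h1
    rw [hs, h1]
    have h10 : ((q : ℤ) - 1) * (a - s) = 0 := by linear_combination h5
    rcases mul_eq_zero.1 h10 with h11 | h11
    · have : (q : ℤ) = 1 := by linarith
      have h12 : q = 1 := by exact_mod_cast this
      omega
    · have : (s : ℤ) = a := by linarith
      rw [this]
      simp
  refine ⟨a + q ^ m * M, by rw [h1]; push_cast; ring, ?_⟩
  have h10 : q - 1 ≤ M := Nat.le_of_dvd (Nat.pos_of_ne_zero hM0) h9
  calc (q - 1) * q ^ m ≤ M * q ^ m := Nat.mul_le_mul_right _ h10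
    _ ≤ a + q ^ m * M := by rw [mul_comm]; exact Nat.le_add_left _ _

end Cfsg.Agent.H668.Ly
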