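import Cfsg.Agent.H655.LySixtySeven
import Cfsg.Agent.H124.Cop.SCLy

/-!
# The Lyons group: elements of order 37 and 67 (helper668)

If `C(y) ≤ N(⟨x⟩)` for all `1 ≠ y ∈ C(x)` (`x` of order `37` or `67`) then `|C(x)| = 37` (`67`) and
`|N(⟨x⟩)| = 37 * 18` (`67 * 22`).
-/

set_option autoImplicit false
set_option maxRecDepth 100000

namespace Cfsg.Agent.H668.Ly

open Subgroup Cfsg Cfsg.Agent.H655.LySixtySeven
open Cfsg.Agent.SporRec Cfsg.Agent.SporRec.TwoAn Cfsg.Agent.SporRec.LyType Cfsg.Agent.SporRec.LyFiveCore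
open Cfsg.Agent.H513.NilpTools Cfsg.Agent.H513.NilpLy Cfsg.Agent.OrdDiv
open Cfsg.Agent.TypeM.Two Cfsg.Agent.CpAutLy.Types Cfsg.Agent.CpAutLy.Base Cfsg.Agent.CpAutLy.McLThree
open Cfsg.Agent.CpAutLy.Cov Cfsg.Agent.H995.CopEngine

/-- `4` divides the orders of the centralizers of the elements of order 3 commuting with `x₀` -/
theorem four_dvd_aux (L : MT 11 Spor.Ly) {x₀ y : Spor.Ly} (h₀ : Three x₀) (hy : orderOf y = 3) (hyx : y * x₀ = x₀ * y) :
    4 ∣ Nat.card (centralizer ({y} : Set Spor.Ly)) := by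
  have hfin : Finite Spor.Ly := Cfsg.Agent.Ly.Setup.finite_ly
  let y' : centralizer ({x₀} : Set Spor.Ly) := ⟨y, Subgroup.mem_centralizer_singleton_iff.2 hyx⟩
  by_cases hc : y' ∈ center ↥(centralizer ({x₀} : Set Spor.Ly))
  · have hle : centralizer ({x₀} : Set Spor.Ly) ≤ centralizer ({y} : Set Spor.Ly) := by
      intro g hg
      have h1 := Subgroup.mem_center_iff.1 hc ⟨g, hg⟩
      exact Subgroup.mem_centralizer_singleton_iff.2 (congrArg Subtype.val h1)
    refine dvd_trans ?_ (card_dvd_of_le hle)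
    rw [H124.Cop.SCLy.card_three h₀]
    norm_num
  · have h3 : orderOf (QuotientGroup.mk y' : ↥(centralizer ({x₀} : Set Spor.Ly)) ⧸
        center ↥(centralizer ({x₀} : Set Spor.Ly))) = 3 :=
      Cfsg.Agent.CpAutLy.Row.orderOf_mk Nat.prime_three (by rw [Subgroup.orderOf_mk, hy]) hc
    obtain ⟨s, hs, hsy⟩ := Cfsg.Agent.McLType.ThreeElts.exists_commuting_involution_of_iso h₀.quot _ h3
    obtain ⟨u, hu, huy⟩ := H124.Cop.SCLy.exists_lift_inv h₀.zcard hs hsy
    have hu' : orderOf (u : Spor.Ly) = 2 := by rw [Subgroup.orderOf_coe]; exact hu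
    have huy' : (u : Spor.Ly) * y = y * u := congrArg Subtype.val huy
    have h4 : 4 ∣ nn y (u : Spor.Ly) := by
      rcases nn_cases L hy hu' huy' with h | h | h <;> rw [h] <;> norm_num
    exact h4.trans (card_dvd_of_le inf_le_left)

/-- `4` divides the orders of the centralizers of the elements of order 3 -/
theorem four_dvd (L : MT 11 Spor.Ly) {y : Spor.Ly} (hy : orderOf y = 3) :
    4 ∣ Nat.card (centralizer ({y} : Set Spor.Ly)) := by
  have hfin : Finite Spor.Ly := Cfsg.Agent.Ly.Setup.finite_ly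
  have : Fact (Nat.Prime 3) := ⟨Nat.prime_three⟩
  obtain ⟨x₀, h₀⟩ := exists_three
  obtain ⟨T, hT⟩ := Sylow.exists_subgroup_card_pow_prime (G := centralizer ({x₀} : Set Spor.Ly)) 3 (n := 7)
    (by rw [H124.Cop.SCLy.card_three h₀]; norm_num)
  set T' : Subgroup Spor.Ly := T.map (centralizer ({x₀} : Set Spor.Ly)).subtype with hT'
  have hcard : Nat.card T' = 3 ^ 7 := by
    rw [hT', card_map_of_injective (subtype_injective _), hT]
  have hfac : (Nat.card Spor.Ly).factorization 3 = 7 := by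
    rw [Cfsg.Agent.Ly.Setup.card_ly]
    apply le_antisymm
    · by_contra h
      rw [not_le] at h
      have h1 := (Nat.prime_three.pow_dvd_iff_le_factorization (by norm_num)).2 h
      norm_num at h1
    · exact (Nat.prime_three.pow_dvd_iff_le_factorization (by norm_num)).1 (by norm_num)
  let R : Sylow 3 Spor.Ly := Sylow.ofCard T' (by rw [hcard, hfac])
  have hR : (R : Subgroup Spor.Ly) = T' := rfl
  obtain ⟨Q, hQ⟩ := (IsPGroup.of_card (G := zpowers y) (p := 3) (n := 1)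
    (by rw [Nat.card_zpowers, hy]; norm_num)).exists_le_sylow
  obtain ⟨g, hg⟩ := MulAction.exists_smul_eq Spor.Ly Q R
  have h1 : g * y * g⁻¹ ∈ (R : Subgroup Spor.Ly) := by
    rw [← hg, Sylow.smul_def, Sylow.pointwise_smul_def]
    exact Subgroup.smul_mem_pointwise_smul y (MulAut.conj g) _ (hQ (mem_zpowers y))
  rw [hR] at h1
  have h2 : g * y * g⁻¹ ∈ centralizer ({x₀} : Set Spor.Ly) := map_subtype_le T h1
  have h3 := four_dvd_aux L h₀ (y := g * y * g⁻¹) (by rw [orderOf_conj', hy]) (Subgroup.mem_centralizer_singleton_iff.1 h2)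
  rwa [← card_cent_conj (g := g) (x := y) rfl] at h3

/-- the test for `|C(x)| = c`, `|N : C| = e` -/
def test (r n c e : ℕ) : Bool :=
  let k := 51765179004000000 / (c * e)
  !Nat.beq (k % r) 1 || (Nat.beq (c % 7) 0 && !Nat.beq (k % 7) 1) || (Nat.beq (c % 11) 0 && !Nat.beq (k % 11) 1) ||
    (Nat.beq (c % 31) 0 && !Nat.beq (k % 31) 1) ||
    (Nat.beq (c % 3) 0 && !Nat.beq (e % 4) 0) ||
    (Nat.beq (c % 3) 0 && !Nat.beq (e % 3) 0 && !Nat.beq ((c * e) % 2187) 0) || (Nat.beq c r && Nat.beq e n)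

theorem arith67 : allDiv [(3, 7), (7, 1), (11, 1), (31, 1), (37, 1)] 67 (fun c =>
    [1, 2, 3, 6, 11, 22, 33, 66].all fun e => test 67 22 c e) = true := by decide +kernel

theorem arith37 : allDiv [(3, 7), (7, 1), (11, 1), (31, 1), (67, 1)] 37 (fun c =>
    [1, 2, 3, 4, 6, 9, 12, 18, 36].all fun e => test 37 18 c e) = true := by decide +kernel

theorem card_eq {r n : ℕ} [hr : Fact r.Prime] (hr0 : ¬ r ∣ 2250000) (hr1 : ¬ r ∣ 39916800) (hr2 : ¬ r ^ 2 ∣ 51765179004000000)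
    (hr5 : ¬ 5 ∣ r - 1) {es : List ℕ} (hes : ∀ e, e ∣ r - 1 → e ∈ es) {l : List (ℕ × ℕ)} (hl : ∀ q ∈ l, q.1.Prime)
    (hprod : 2 ^ 8 * (5 ^ 6 * (r * prodL l)) = 51765179004000000)
    (harith : allDiv l r (fun c => es.all fun e => test r n c e) = true) {x : Spor.Ly} (hx : orderOf x = r)
    (hC : ∀ y : Spor.Ly, y ≠ 1 → y * x = x * y → centralizer ({y} : Set Spor.Ly) ≤ normalizer (zpowers x : Set Spor.Ly)) :
    Nat.card (centralizer ({x} : Set Spor.Ly)) = r ∧ Nat.card (normalizer (zpowers x : Set Spor.Ly)) = r * n := by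
  have hfin : Finite Spor.Ly := Cfsg.Agent.Ly.Setup.finite_ly
  obtain ⟨M⟩ := TypeM.FactsLy.exists_mt_ly
  have hcard := Cfsg.Agent.Ly.Setup.card_ly
  let L : LyType Spor.Ly := { t := M.t, K := M.K, hz := M.hz, one := M.one }
  obtain ⟨f, hf, hbig⟩ := exists_f L (by rw [hcard]; norm_num)
  have h5F : Fact (Nat.Prime 5) := ⟨Nat.prime_five⟩
  have h2F : Fact (Nat.Prime 2) := ⟨Nat.prime_two⟩
  have h3F : Fact (Nat.Prime 3) := ⟨Nat.prime_three⟩
  have hrq : ¬ r ^ 2 ∣ Nat.card Spor.Ly := by rw [hcard]; exact hr2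
  have hC2 : ¬ 2 ∣ Nat.card ↥(centralizer ({x} : Set Spor.Ly)) := by
    intro hd
    obtain ⟨t, ht⟩ := exists_prime_orderOf_dvd_card' 2 hd
    have h1 := card_inv L (s := (t : Spor.Ly)) (by rw [Subgroup.orderOf_coe]; exact ht)
    have h2 := orderOf_dvd_natCard (⟨x, Subgroup.mem_centralizer_singleton_iff.2
      (Subgroup.mem_centralizer_singleton_iff.1 t.2).symm⟩ : centralizer ({(t : Spor.Ly)} : Set Spor.Ly))
    rw [Subgroup.orderOf_mk, hx, h1] at h2
    exact hr1 h2
  have e5 : ¬ 5 ^ 4 ∣ Nat.card ↥(centralizer ({x} : Set Spor.Ly)) := by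
    refine not_dvd_cent hbig hx ?_
    rw [hf]
    intro h
    apply hr0
    exact h.trans (dvd_of_eq (by norm_num))
  set N := normalizer ((zpowers x : Subgroup Spor.Ly) : Set Spor.Ly) with hN
  set C := centralizer ({x} : Set Spor.Ly) with hCdef
  have hcn : Nat.card ↥N ∣ Nat.card ↥C * (r - 1) := H568.OddPair.card_normalizer hx
  have hCN : C ≤ N := by
    intro g hg
    apply mem_norm_of
    have h1 : g * x = x * g := mem_centralizer_singleton_iff.1 hg
    rw [h1, mul_inv_cancel_right]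
    exact mem_zpowers x
  have hcc : Nat.card (C.subgroupOf N) = Nat.card C := Nat.card_congr (Subgroup.subgroupOfEquivOfLe hCN).toEquiv
  have hcm := (C.subgroupOf N).card_mul_index
  rw [hcc] at hcm
  set e := (C.subgroupOf N).index with he
  have he66 : e ∣ r - 1 := by
    rw [← hcm] at hcn
    exact Nat.dvd_of_mul_dvd_mul_left Nat.card_pos hcn
  have hmod : N.index ≡ 1 [MOD r] := H568.OddPair.index_mod hrq hx
  have hNi : 51765179004000000 / (Nat.card C * e) = N.index := by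
    rw [hcm, ← hcard, ← N.card_mul_index]
    exact Nat.mul_div_cancel_left _ Nat.card_pos
  have hxc : r ∣ Nat.card C := by
    have h1 := orderOf_dvd_natCard (⟨x, mem_centralizer_singleton_iff.2 rfl⟩ : C)
    rwa [Subgroup.orderOf_mk, hx] at h1
  -- the prime five
  have h5C : ¬ 5 ∣ Nat.card C := by
    intro h5
    have h1 : 5 ^ 6 ∣ Nat.card ↥N := pow_dvd_norm hC Nat.prime_five h5
      (fun h => hr5 (h.trans he66)) (by rw [hcard]; norm_num)
    apply e5
    refine Nat.Coprime.dvd_of_dvd_mul_right ?_ ((pow_dvd_pow 5 (by norm_num : 4 ≤ 6)).trans (h1.trans hcn))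
    exact Nat.Coprime.pow_left 4 ((Nat.Prime.coprime_iff_not_dvd Nat.prime_five).2 hr5)
  have hother : ∀ q : ℕ, q.Prime → ¬ q ^ 2 ∣ Nat.card Spor.Ly → q ∣ Nat.card C → N.index % q = 1 := by
    intro q hq hq2 hqC
    have h1 : N.index % q = 1 % q := index_mod_other hrq hx hC hq hq2 hqC
    rwa [Nat.mod_eq_of_lt hq.one_lt] at h1
  have h3 : 3 ∣ Nat.card C → ¬ 3 ∣ e → 2187 ∣ Nat.card C * e := by
    intro h3 h3e
    rw [hcm]
    exact pow_dvd_norm hC Nat.prime_three h3 h3e (k := 7) (by rw [hcard]; norm_num)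
  have h34 : 3 ∣ Nat.card C → 4 ∣ e := by
    intro h3
    obtain ⟨⟨y, hyC⟩, hy⟩ := exists_prime_orderOf_dvd_card' 3 h3
    rw [Subgroup.orderOf_mk] at hy
    have hy1 : y ≠ 1 := by
      rintro rfl
      rw [orderOf_one] at hy
      omega
    have h4 := (four_dvd M hy).trans (card_dvd_of_le (hC y hy1 (mem_centralizer_singleton_iff.1 hyC)))
    rw [← hcm] at h4
    refine Nat.Coprime.dvd_of_dvd_mul_left ?_ h4
    exact Nat.Coprime.pow_left 2 ((Nat.Prime.coprime_iff_not_dvd Nat.prime_two).2 hC2)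
  -- the divisor
  obtain ⟨m, hm⟩ := hxc
  have hcd := card_subgroup_dvd_card C
  rw [hcard, ← hprod] at hcd
  have hcd2 := dvd_drop Nat.prime_five h5C (dvd_drop Nat.prime_two hC2 hcd)
  have hm2 : m ∣ prodL l := by
    rw [hm] at hcd2
    exact Nat.dvd_of_mul_dvd_mul_left hr.out.pos hcd2
  have ht := List.all_eq_true.1 (allDiv_spec hl harith hm2) e (hes e he66)
  rw [← hm] at ht
  unfold test at ht
  rw [hNi] at ht
  simp only [Bool.or_eq_true, Bool.and_eq_true, Bool.not_eq_true', ← Bool.not_eq_true, Nat.beq_eq, ← Nat.dvd_iff_mod_eq_zero] at ht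
  have hmod' : N.index % r = 1 := by
    have : N.index % r = 1 % r := hmod
    rwa [Nat.mod_eq_of_lt hr.out.one_lt] at this
  rcases ht with (((((ht | ht) | ht) | ht) | ht) | ht) | ht
  · exact absurd hmod' ht
  · exact absurd (hother 7 (by norm_num) (by rw [hcard]; norm_num) ht.1) ht.2
  · exact absurd (hother 11 (by norm_num) (by rw [hcard]; norm_num) ht.1) ht.2
  · exact absurd (hother 31 (by norm_num) (by rw [hcard]; norm_num) ht.1) ht.2
  · exact absurd (h34 ht.1) ht.2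
  · exact absurd (h3 ht.1.1 ht.1.2) ht.2
  · exact ⟨ht.1, by rw [← hcm, ht.1, ht.2]⟩

end Cfsg.Agent.H668.Ly
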