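import Cfsg.Agent.H668.Ly.Moment
import Cfsg.Agent.H162.CC.Iface

/-!
# The second moment criterion (helper668, S3828, task LY-37-67)

`false_of_moment` : `G` finite, `p² ∤ |G|`, `|C(x)| = p`, `|N(⟨x⟩)| = p n` for `x` of order `p`, all non-trivial irreducible
characters of degree `≥ D`; if `(p / |G| + y) (1 + n y) < 1` for `y = (p-1)/(p n) + (p-1) r / D`,
`r² ≥ (p-1)/(pn) (1 - (p-1)/(pn))`, then no commutator closed normal set contains a non-trivial `p`-element.
-/

set_option autoImplicit false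
set_option linter.unusedSectionVars false

namespace Cfsg.Agent.H668.Ly

open Subgroup Cfsg Cfsg.Agent.Characters.Core Cfsg.Agent.Characters.ClassMul Cfsg.Agent.Characters.Central
  Cfsg.Agent.H686.CharKit
open scoped ComplexConjugate Pointwise

universe u

theorem Y_le {G : Type u} [Group G] [Fintype G] [DecidableEq G] [Fintype (IrrCharacter G)] (X : Finset G)
    (hX : ∀ g x : G, x ∈ X → g * x * g⁻¹ ∈ X) (c : G) {p : ℕ} (hc : Nat.card (centralizer ({c} : Set G)) = p)
    {r D : ℝ} (hr : 0 ≤ r) (h : (X.card : ℝ) * (Nat.card G - X.card) ≤ r ^ 2) (hD : 0 < D)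
    (hdeg : ∀ χ : IrrCharacter G, χ ≠ ConstDiff.one G → D ≤ ‖(χ : G → ℂ) 1‖) :
    ((Finset.univ.filter fun a : G => (a * c * a⁻¹)⁻¹ * c ∈ X).card : ℝ) ≤ X.card + (p - 1) * r / D := by
  classical
  set Y := (Finset.univ.filter fun a : G => (a * c * a⁻¹)⁻¹ * c ∈ X).card with hY
  have h1 := card_Y X hX c
  rw [← hY, ← Finset.add_sum_erase _ _ (Finset.mem_univ (ConstDiff.one G))] at h1
  have h2 : (Complex.normSq ((ConstDiff.one G : G → ℂ) c) : ℂ) * T X (ConstDiff.one G : G → ℂ) /
      (ConstDiff.one G : G → ℂ) 1 = X.card := by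
    rw [ConstDiff.one_apply, ConstDiff.one_apply, T, Finset.sum_congr rfl fun e _ => ConstDiff.one_apply e]
    simp
  rw [h2] at h1
  have h3 : ‖∑ χ ∈ Finset.univ.erase (ConstDiff.one G), (Complex.normSq ((χ : G → ℂ) c) : ℂ) * T X (χ : G → ℂ) /
      (χ : G → ℂ) 1‖ ≤ (p - 1) * r / D := by
    refine (norm_sum_le _ _).trans ?_
    have h4 : ∀ χ ∈ (Finset.univ : Finset (IrrCharacter G)).erase (ConstDiff.one G),
        ‖(Complex.normSq ((χ : G → ℂ) c) : ℂ) * T X (χ : G → ℂ) / (χ : G → ℂ) 1‖ ≤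
        Complex.normSq ((χ : G → ℂ) c) * (r / D) := by
      intro χ hχ
      have hne := Finset.ne_of_mem_erase hχ
      rw [norm_div, norm_mul, Complex.norm_real, Real.norm_of_nonneg (Complex.normSq_nonneg _), mul_div_assoc]
      refine mul_le_mul_of_nonneg_left ?_ (Complex.normSq_nonneg _)
      exact div_le_div₀ hr (norm_T_le X hX hr h hne) hD (hdeg χ hne)
    refine (Finset.sum_le_sum h4).trans ?_
    rw [← Finset.sum_mul]
    have h5 := sum_normSq (G := G) c
    rw [hc, ← Finset.add_sum_erase _ _ (Finset.mem_univ (ConstDiff.one G)), ConstDiff.one_apply, map_one] at h5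
    have h6 : ∑ χ ∈ Finset.univ.erase (ConstDiff.one G), Complex.normSq ((χ : G → ℂ) c) = (p : ℝ) - 1 := by linarith
    rw [h6]
    exact le_of_eq (by ring)
  have h7 : (((Y : ℝ) - X.card : ℝ) : ℂ) = ∑ χ ∈ Finset.univ.erase (ConstDiff.one G),
      (Complex.normSq ((χ : G → ℂ) c) : ℂ) * T X (χ : G → ℂ) / (χ : G → ℂ) 1 := by
    push_cast
    rw [h1]
    ring
  rw [← h7, Complex.norm_real] at h3
  have h8 := (le_abs_self _).trans h3
  linarith

section

variable {G : Type u} [Group G] [Finite G] {p : ℕ} [hp : Fact p.Prime]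

theorem mem_zpowers_of_cent {x y : G} (hx : orderOf x = p) (hc : Nat.card (centralizer ({x} : Set G)) = p)
    (hy : y * x = x * y) : y ∈ zpowers x := by
  have h1 : zpowers x ≤ centralizer ({x} : Set G) := by
    rw [zpowers_le]
    exact mem_centralizer_singleton_iff.2 rfl
  have h2 : zpowers x = centralizer ({x} : Set G) := by
    apply Subgroup.eq_of_le_of_card_ge h1
    rw [hc, Nat.card_zpowers, hx]
  rw [h2]
  exact mem_centralizer_singleton_iff.2 hy

theorem orderOf_of_mem {x y : G} (hx : orderOf x = p) (hy : y ∈ zpowers x) (hy1 : y ≠ 1) : orderOf y = p := by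
  have h1 : orderOf y ∣ p := by
    rw [← hx]
    exact orderOf_dvd_of_mem_zpowers hy
  rcases (Nat.dvd_prime hp.out).1 h1 with h | h
  · exact absurd (orderOf_eq_one_iff.1 h) hy1
  · exact h

/-- all subgroups of order `p` are conjugate -/
theorem exists_conj_mem (hsq : ¬ p ^ 2 ∣ Nat.card G) {x e : G} (hx : orderOf x = p) (he : orderOf e = p) :
    ∃ k : G, k⁻¹ * e * k ∈ zpowers x := by
  have hz : ∀ y : G, orderOf y = p → ∃ P : Sylow p G, (P : Subgroup G) = zpowers y := by
    intro y hy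
    have h1 : IsPGroup p (zpowers y) := IsPGroup.of_card (n := 1) (by rw [Nat.card_zpowers, hy, pow_one])
    obtain ⟨P, hP⟩ := h1.exists_le_sylow
    refine ⟨P, (Subgroup.eq_of_le_of_card_ge hP ?_).symm⟩
    rw [Nat.card_zpowers, hy]
    obtain ⟨k, hk⟩ := IsPGroup.iff_card.1 P.2
    have h2 : k ≤ 1 := by
      by_contra hcon
      apply hsq
      refine (pow_dvd_pow p (show 2 ≤ k by omega)).trans ?_
      rw [← hk]
      exact Subgroup.card_subgroup_dvd_card _
    have h3 : Nat.card (P : Subgroup G) = p ^ k := hk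
    rw [h3]
    calc p ^ k ≤ p ^ 1 := Nat.pow_le_pow_right hp.out.pos h2
      _ = p := pow_one p
  obtain ⟨P, hP⟩ := hz x hx
  obtain ⟨Q, hQ⟩ := hz e he
  obtain ⟨k, hk⟩ := MulAction.exists_smul_eq G P Q
  refine ⟨k, ?_⟩
  have h1 : e ∈ (Q : Subgroup G) := by rw [hQ]; exact mem_zpowers e
  rw [← hk] at h1
  have h2 : e ∈ MulAut.conj k • (P : Subgroup G) := h1
  rw [Subgroup.mem_pointwise_smul_iff_inv_smul_mem, ← map_inv, MulAut.smul_def, MulAut.conj_apply, inv_inv, hP] at h2
  exact h2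

theorem card_filter_normalizer [Fintype G] [DecidableEq G] {x e : G} {Z : Finset G} (hx : orderOf x = p)
    (hZ : ∀ y, y ∈ Z ↔ y ≠ 1 ∧ y ∈ zpowers x) {k : G} (hk : k⁻¹ * e * k ∈ Z) :
    (Finset.univ.filter fun g : G => g⁻¹ * e * g ∈ Z).card = Nat.card (normalizer (zpowers x : Set G)) := by
  classical
  set z := k⁻¹ * e * k with hz
  have hzx := (hZ z).1 hk
  have hzo : orderOf z = p := orderOf_of_mem hx hzx.2 hzx.1
  have hzz : zpowers z = zpowers x := by
    apply Subgroup.eq_of_le_of_card_ge ((zpowers_le).2 hzx.2)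
    rw [Nat.card_zpowers, Nat.card_zpowers, hx, hzo]
  have hzn : ∀ g : G, g⁻¹ * z * g ∈ zpowers x ↔ g ∈ normalizer (zpowers x : Set G) := by
    intro g
    rw [← hzz]
    constructor
    · intro h
      have h1 : g⁻¹ ∈ normalizer (zpowers z : Set G) := by
        refine Subgroup.mem_normalizer_fintype fun n hn => ?_
        obtain ⟨i, rfl⟩ := hn
        have e : g⁻¹ * (fun k : ℤ => z ^ k) i * g⁻¹⁻¹ = (g⁻¹ * z * g) ^ i := by
          simp only [inv_inv]
          have := conj_zpow (i := i) (a := g⁻¹) (b := z)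
          rw [inv_inv] at this
          exact this.symm
        rw [e]
        exact zpow_mem h i
      have := inv_mem h1
      rwa [inv_inv] at this
    · intro h
      exact (mem_normalizer_iff''.1 h z).1 (mem_zpowers z)
  have hz1 : z ≠ 1 := hzx.1
  have key : ∀ g : G, g⁻¹ * e * g ∈ Z ↔ k⁻¹ * g ∈ normalizer (zpowers x : Set G) := by
    intro g
    have e1 : g⁻¹ * e * g = (k⁻¹ * g)⁻¹ * z * (k⁻¹ * g) := by rw [hz]; group
    rw [← hzn, hZ, e1]
    constructor
    · exact fun h => h.2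
    · intro h
      refine ⟨fun h0 => hz1 ?_, h⟩
      have e2 : z = (k⁻¹ * g) * ((k⁻¹ * g)⁻¹ * z * (k⁻¹ * g)) * (k⁻¹ * g)⁻¹ := by group
      rw [e2, h0]
      group
  rw [← Fintype.card_subtype, ← Nat.card_eq_fintype_card]
  exact Nat.card_congr
    { toFun := fun g => ⟨k⁻¹ * g.1, (key g.1).1 g.2⟩
      invFun := fun m => ⟨k * m.1, (key _).2 (by rw [inv_mul_cancel_left]; exact m.2)⟩
      left_inv := fun g => Subtype.ext (mul_inv_cancel_left _ _)
      right_inv := fun m => Subtype.ext (inv_mul_cancel_left _ _) }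

/-- **The second moment criterion.** -/
theorem false_of_moment {G : Type u} [Group G] [Finite G] {n : ℕ}
    (hsq : ¬ p ^ 2 ∣ Nat.card G) (hcent : ∀ x : G, orderOf x = p → Nat.card (centralizer ({x} : Set G)) = p)
    (hnorm : ∀ x : G, orderOf x = p → Nat.card (normalizer (zpowers x : Set G)) = p * n)
    {D : ℝ} (hD : 0 < D) (hdeg : ∀ χ : IrrCharacter G, χ ≠ ConstDiff.one G → D ≤ ‖(χ : G → ℂ) 1‖)
    {r y : ℝ} (hr : 0 ≤ r) (hr2 : ((p : ℝ) - 1) * (p * n - (p - 1)) ≤ (r * (p * n)) ^ 2)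
    (hy : ((p : ℝ) - 1) / (p * n) + (p - 1) * r / D ≤ y) (hnum : ((p : ℝ) / Nat.card G + y) * (1 + n * y) < 1)
    {C : Set G} (hC : H162.CCR.CC p C) {c : G} (hcC : c ∈ C) : c = 1 := by
  classical
  have := Fintype.ofFinite G
  have hfin : Finite (IrrCharacter G) := finite_irr
  have := Fintype.ofFinite (IrrCharacter G)
  by_contra hc1
  -- elements of `C`
  have hord : ∀ x ∈ C, x ≠ 1 → orderOf x = p := by
    intro x hx hx1
    obtain ⟨k, hk⟩ := hC.pel x hx
    have hk0 : k ≠ 0 := by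
      rintro rfl
      rw [pow_zero] at hk
      exact hx1 (orderOf_eq_one_iff.1 hk)
    have hk2 : k < 2 := by
      by_contra hcon
      apply hsq
      refine (pow_dvd_pow p (show 2 ≤ k by omega)).trans ?_
      rw [← hk]
      exact orderOf_dvd_natCard x
    have : k = 1 := by omega
    rw [hk, this, pow_one]
  have hco := hord c hcC hc1
  set X : Finset G := Finset.univ.filter fun x => orderOf x = p with hXd
  set Z : Finset G := Finset.univ.filter fun x => x ≠ 1 ∧ x * c = c * x with hZd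
  have memX : ∀ x, x ∈ X ↔ orderOf x = p := fun x => by rw [hXd]; simp
  have memZ : ∀ x, x ∈ Z ↔ x ≠ 1 ∧ x * c = c * x := fun x => by rw [hZd]; simp
  have memZ' : ∀ x, x ∈ Z ↔ x ≠ 1 ∧ x ∈ zpowers c := by
    intro x
    rw [memZ]
    refine and_congr_right fun _ => ⟨mem_zpowers_of_cent hco (hcent c hco), ?_⟩
    rintro ⟨i, rfl⟩
    exact ((Commute.refl c).zpow_left i).eq
  have hX : ∀ g x : G, x ∈ X → g * x * g⁻¹ ∈ X := by
    intro g x hx
    rw [memX] at hx ⊢
    rw [← hx]
    exact MulEquiv.orderOf_eq (MulAut.conj g) x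
  have hXi : ∀ x ∈ X, x⁻¹ ∈ X := by
    intro x hx
    rw [memX] at hx ⊢
    rw [orderOf_inv, hx]
  have hZX : Z ⊆ X := by
    intro x hx
    rw [memZ'] at hx
    rw [memX]
    exact orderOf_of_mem hco hx.2 hx.1
  have hν : ∀ e ∈ X, (Finset.univ.filter fun g : G => g⁻¹ * e * g ∈ Z).card = p * n := by
    intro e he
    rw [memX] at he
    obtain ⟨k, hk⟩ := exists_conj_mem hsq hco he
    rw [card_filter_normalizer hco memZ' (k := k), hnorm c hco]
    rw [memZ']
    refine ⟨fun h0 => ?_, hk⟩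
    have e1 : e = k * (k⁻¹ * e * k) * k⁻¹ := by group
    rw [h0, mul_one, mul_inv_cancel] at e1
    rw [e1, orderOf_one] at he
    exact hp.out.one_lt.ne he
  have hcomm : ∀ g : G, c⁻¹ * (g * c * g⁻¹)⁻¹ * c * (g * c * g⁻¹) = 1 ∨
      c⁻¹ * (g * c * g⁻¹)⁻¹ * c * (g * c * g⁻¹) ∈ X := by
    intro g
    by_cases h : c⁻¹ * (g * c * g⁻¹)⁻¹ * c * (g * c * g⁻¹) = 1
    · exact Or.inl h
    · exact Or.inr ((memX _).2 (hord _ (hC.comm c hcC _ (hC.conj g c hcC)) h))
  obtain ⟨Y, hY1, hY2⟩ := main_ineq X Z hX hXi c memZ hZX hν hcomm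
  -- the number of elements of order `p`
  have hZc : Z.card = p - 1 := by
    have h1 : insert 1 Z = Finset.univ.filter fun x => x ∈ zpowers c := by
      ext x
      simp only [Finset.mem_insert, Finset.mem_filter, Finset.mem_univ, true_and, memZ']
      constructor
      · rintro (rfl | h)
        · exact one_mem _
        · exact h.2
      · intro h
        by_cases h1 : x = 1
        · exact Or.inl h1
        · exact Or.inr ⟨h1, h⟩
    have h2 := congrArg Finset.card h1
    have h3 : (Finset.univ.filter fun x => x ∈ zpowers c).card = p := by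
      rw [← Fintype.card_subtype, ← Nat.card_eq_fintype_card, Nat.card_zpowers, hco]
    rw [Finset.card_insert_of_notMem (fun h => ((memZ' 1).1 h).1 rfl), h3] at h2
    omega
  have hXc : (Nat.card G : ℝ) * (p - 1) = p * n * X.card := by
    have h1 := avg X Z hX hZX hν (F := fun _ => (1 : ℂ)) (fun _ _ => rfl)
    simp only [Finset.sum_const, nsmul_eq_mul, mul_one, hZc] at h1
    have h2 : (Nat.card G : ℝ) * ((p - 1 : ℕ) : ℝ) = ((p * n : ℕ) : ℝ) * X.card := by exact_mod_cast h1
    rw [Nat.cast_sub hp.out.one_lt.le] at h2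
    push_cast at h2
    exact h2
  have hg : (0 : ℝ) < Nat.card G := by exact_mod_cast Nat.card_pos
  have hp1 : (1 : ℝ) < p := by exact_mod_cast hp.out.one_lt
  have hn0 : (0 : ℝ) < p * n := by
    have h1 : 0 < p * n := by
      rw [← hnorm c hco]
      exact Nat.card_pos
    exact_mod_cast h1
  have hp0 : (p : ℝ) ≠ 0 := by linarith
  have hn00 : (n : ℝ) ≠ 0 := fun h0 => by rw [h0, mul_zero] at hn0; exact lt_irrefl _ hn0
  have hXc' : (X.card : ℝ) = Nat.card G * ((p - 1) / (p * n)) := by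
    field_simp
    linarith
  have hY3 : (((Finset.univ.filter fun a : G => (a * c * a⁻¹)⁻¹ * c ∈ X).card : ℕ) : ℝ) ≤ Nat.card G * y := by
    have h1 := Y_le X hX c (hcent c hco) (r := r * Nat.card G) (D := D) (by positivity) ?_ hD hdeg
    · refine h1.trans ?_
      rw [hXc']
      calc _ = (Nat.card G : ℝ) * (((p : ℝ) - 1) / (p * n) + (p - 1) * r / D) := by ring
        _ ≤ _ := mul_le_mul_of_nonneg_left hy hg.le
    · rw [hXc']
      have h2 : (Nat.card G : ℝ) * ((p - 1) / (p * n)) * (Nat.card G - Nat.card G * ((p - 1) / (p * n))) =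
          Nat.card G ^ 2 * (((p - 1) * (p * n - (p - 1))) / (p * n) ^ 2) := by
        field_simp
      have h3 : (r * (Nat.card G : ℝ)) ^ 2 = Nat.card G ^ 2 * r ^ 2 := by ring
      rw [h2, h3]
      refine mul_le_mul_of_nonneg_left ?_ (by positivity)
      rw [div_le_iff₀ (by positivity)]
      calc _ ≤ (r * (p * n)) ^ 2 := hr2
        _ = _ := by ring
  rw [← hY1, hcent c hco] at hY3
  rw [hcent c hco] at hY2
  have h1 : (Nat.card G : ℝ) ^ 2 ≤ (1 + Y) * (p * (Nat.card G + (p * n) * Y)) := by exact_mod_cast hY2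
  push_cast at hY3
  have hn1 : (0 : ℝ) ≤ n := Nat.cast_nonneg _
  have hY0 : (0 : ℝ) ≤ Y := Nat.cast_nonneg _
  have hy0 : 0 ≤ y := by
    by_contra hcon
    push Not at hcon
    have : (0 : ℝ) ≤ p * Y := by positivity
    nlinarith
  have h2 : (1 + (Y : ℝ)) * (p * (Nat.card G + (p * n) * Y)) = (p + p * Y) * (Nat.card G + n * (p * Y)) := by ring
  rw [h2] at h1
  have h3 : ((p : ℝ) + p * Y) * (Nat.card G + n * (p * Y)) ≤
      (p + Nat.card G * y) * (Nat.card G + n * (Nat.card G * y)) := by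
    refine mul_le_mul (by linarith) ?_ (by positivity) (by positivity)
    have := mul_le_mul_of_nonneg_left hY3 hn1
    linarith
  have h4 : ((p : ℝ) + Nat.card G * y) * (Nat.card G + n * (Nat.card G * y)) =
      (Nat.card G : ℝ) ^ 2 * (((p : ℝ) / Nat.card G + y) * (1 + n * y)) := by
    field_simp
  rw [h4] at h3
  have h5 : (Nat.card G : ℝ) ^ 2 * (((p : ℝ) / Nat.card G + y) * (1 + n * y)) < (Nat.card G : ℝ) ^ 2 * 1 :=
    mul_lt_mul_of_pos_left hnum (by positivity)
  linarith

end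

end Cfsg.Agent.H668.Ly
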