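import Cfsg.Agent.H668.Ly.LyCent
import Cfsg.Agent.H668.Ly.MomentMain
import Cfsg.Agent.H668.Ly.ExtraDeg
import Cfsg.Agent.H582.Ly.FvFour
import Cfsg.Agent.H162.CC.Tools3
import Cfsg.Agent.SporadicA.M11CharSimple

/-!
# The Lyons group, primes 37 and 67 (helper668, S3828)

* `deg_ly` : non-trivial irreducible characters of `Ly` have degree at least 100;
* `crow_ly_37`, `crow_ly_67` : the rows.
-/

set_option autoImplicit false
set_option maxRecDepth 100000

namespace Cfsg.Agent.H668.Ly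

open Subgroup Cfsg Cfsg.Agent.H162.CCR Cfsg.Agent.H582.Ly
open Cfsg.Agent.Characters.Core

theorem deg_ly (χ : IrrCharacter Spor.Ly) (hχ : χ ≠ ConstDiff.one Spor.Ly) :
    (100 : ℝ) ≤ ‖(χ : Spor.Ly → ℂ) 1‖ := by
  classical
  have hfin : Finite Spor.Ly := Cfsg.Agent.Ly.Setup.finite_ly
  have hs : IsSimpleGroup Spor.Ly := Cfsg.Agent.Ly.Setup.isSimple_ly
  obtain ⟨M⟩ := TypeM.FactsLy.exists_mt_ly
  obtain ⟨f, hf⟩ := Cfsg.Agent.SporRec.LyFiveFinal.exists_five (toLy M)
  have h := fv_of_five hf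
  obtain ⟨u, hu⟩ := exists_conj_sq M hf
  set K := Cfsg.Agent.SporRec.LyFiveCore.core f with hK
  have h5F : Fact (Nat.Prime 5) := ⟨Nat.prime_five⟩
  have hmem : ∀ z : K, z ∈ center K ↔ (z : Spor.Ly) ∈ zpowers f := by
    intro z
    rw [mem_center_iff]
    constructor
    · intro hz
      exact h.center z z.2 fun k hk => (congrArg Subtype.val (hz ⟨k, hk⟩)).symm
    · intro hz k
      exact Subtype.ext (h.h.comm_F k.2 hz)
  have hcen : center K = (zpowers f).subgroupOf K := by
    ext z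
    rw [hmem, mem_subgroupOf]
  have hZ : Nat.card (center K) = 5 := by
    rw [hcen, Nat.card_congr (subgroupOfEquivOfLe h.h.F_le).toEquiv, Nat.card_zpowers, h.h.f5]
  have hcomm : commutator K ≤ center K := by
    rw [commutator_def, commutator_le]
    intro a _ b _
    rw [hmem]
    exact h.h.comm_mem a.2 b.2
  have hconj : ∀ z : K, z ∈ center K → z ≠ 1 → IsConj f (z : Spor.Ly) := by
    intro z hz hz1
    rw [hmem] at hz
    have hz' : (z : Spor.Ly) ∈ zpowers f := hz
    rw [mem_zpowers_iff_mem_range_orderOf, h.h.f5] at hz'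
    obtain ⟨i, hi, hiz⟩ := Finset.mem_image.1 hz'
    rw [Finset.mem_range] at hi
    have e2 : u * f ^ 2 * u⁻¹ = f ^ 4 := by
      rw [← conj_pow, hu, ← pow_mul]
    have e3 : u * f ^ 4 * u⁻¹ = f ^ 3 := by
      rw [← conj_pow, hu, ← pow_mul, show 2 * 4 = 5 + 3 by norm_num, pow_add, h.h.f_pow, one_mul]
    have c2 : IsConj f (f ^ 2) := isConj_iff.2 ⟨u, hu⟩
    have c4 : IsConj f (f ^ 4) := c2.trans (isConj_iff.2 ⟨u, e2⟩)
    have c3 : IsConj f (f ^ 3) := c4.trans (isConj_iff.2 ⟨u, e3⟩)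
    rw [← hiz]
    interval_cases i
    · exact absurd (Subtype.ext (by rw [← hiz]; simp)) hz1
    · simp only [pow_one]
      exact IsConj.refl f
    · exact c2
    · exact c3
    · exact c4
  have hne : (χ : Spor.Ly → ℂ) f ≠ (χ : Spor.Ly → ℂ) 1 := by
    intro h1
    apply hχ
    exact Subtype.ext (Cfsg.Agent.SporadicA.M11CharSimple.eq_one_of_apply_eq χ.2 h.h.f_ne h1)
  obtain ⟨n, hn, hn2⟩ := deg_ge (q := 5) (m := 2) K h.h.card hZ hcomm hconj (isIrr_isCharacter χ.2) hne
  rw [hn, Complex.norm_natCast]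
  have : (100 : ℕ) ≤ n := le_trans (by norm_num) hn2
  exact_mod_cast this

theorem crow_aux {r n : ℕ} [hr : Fact r.Prime] (hr0 : ¬ r ∣ 2250000) (hr1 : ¬ r ∣ 39916800)
    (hr2 : ¬ r ^ 2 ∣ 51765179004000000)
    (hr5 : ¬ 5 ∣ r - 1) {es : List ℕ} (hes : ∀ e, e ∣ r - 1 → e ∈ es) {l : List (ℕ × ℕ)} (hl : ∀ q ∈ l, q.1.Prime)
    (hprod : 2 ^ 8 * (5 ^ 6 * (r * H513.NilpTools.prodL l)) = 51765179004000000)
    (harith : H513.NilpTools.allDiv l r (fun c => es.all fun e => test r n c e) = true)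
    {t y : ℝ} (ht : 0 ≤ t) (ht2 : ((r : ℝ) - 1) * (r * n - (r - 1)) ≤ (t * (r * n)) ^ 2)
    (hy : ((r : ℝ) - 1) / (r * n) + (r - 1) * t / 100 ≤ y)
    (hnum : ((r : ℝ) / 51765179004000000 + y) * (1 + n * y) < 1) : CRow r Spor.Ly := by
  intro C hC c hc
  by_contra hc1
  have hfin : Finite Spor.Ly := Cfsg.Agent.Ly.Setup.finite_ly
  have hs : IsSimpleGroup Spor.Ly := Cfsg.Agent.Ly.Setup.isSimple_ly
  have hcard := Cfsg.Agent.Ly.Setup.card_ly
  have hrq : ¬ r ^ 2 ∣ Nat.card Spor.Ly := by rw [hcard]; exact hr2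
  have hna : ¬ IsMulCommutative Spor.Ly := by
    intro hm
    obtain ⟨L⟩ := TypeM.FactsLy.exists_mt_ly
    obtain ⟨a, b, hab⟩ := TypeM.OutLyFin.not_comm (by norm_num) L
    exact hab (hm.is_comm.comm a b)
  have hO : pCore r Spor.Ly = ⊥ := pCore_eq_bot_of_simple hna r
  have hZ : center Spor.Ly = ⊥ := by
    rcases (inferInstance : (center Spor.Ly).Normal).eq_bot_or_eq_top with h | h
    · exact h
    · exfalso
      apply hna
      exact ⟨⟨fun a b => (mem_center_iff.1 (show b ∈ center Spor.Ly by rw [h]; trivial)) a⟩⟩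
  have hco : orderOf c = r := by
    obtain ⟨k, hk⟩ := hC.pel c hc
    have hk0 : k ≠ 0 := by
      rintro rfl
      rw [pow_zero] at hk
      exact hc1 (orderOf_eq_one_iff.1 hk)
    have hk2 : k < 2 := by
      by_contra hcon
      apply hrq
      refine (pow_dvd_pow r (show 2 ≤ k by omega)).trans ?_
      rw [← hk]
      exact orderOf_dvd_natCard c
    have : k = 1 := by omega
    rw [hk, this, pow_one]
  -- the Sylow subgroup `⟨c⟩`
  obtain ⟨P, hP⟩ : ∃ P : Sylow r Spor.Ly, (P : Subgroup Spor.Ly) = zpowers c := by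
    have h1 : IsPGroup r (zpowers c) := IsPGroup.of_card (n := 1) (by rw [Nat.card_zpowers, hco, pow_one])
    obtain ⟨P, hP⟩ := h1.exists_le_sylow
    refine ⟨P, (Subgroup.eq_of_le_of_card_ge hP ?_).symm⟩
    rw [Nat.card_zpowers, hco]
    obtain ⟨k, hk⟩ := IsPGroup.iff_card.1 P.2
    have h2 : k ≤ 1 := by
      by_contra hcon
      apply hrq
      refine (pow_dvd_pow r (show 2 ≤ k by omega)).trans ?_
      rw [← hk]
      exact Subgroup.card_subgroup_dvd_card _
    have h3 : Nat.card (P : Subgroup Spor.Ly) = r ^ k := hk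
    rw [h3]
    calc r ^ k ≤ r ^ 1 := Nat.pow_le_pow_right hr.out.pos h2
      _ = r := pow_one r
  have hcP : c ∈ (P : Subgroup Spor.Ly) := by rw [hP]; exact mem_zpowers c
  have hW : W C (P : Subgroup Spor.Ly) = zpowers c := by
    apply le_antisymm
    · rw [← hP]
      exact W_le
    · rw [zpowers_le]
      exact mem_W hc hcP
  have hcl : ∀ y : Spor.Ly, y ≠ 1 → y * c = c * y →
      centralizer ({y} : Set Spor.Ly) ≤ normalizer (zpowers c : Set Spor.Ly) := by
    intro y hy1 hyc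
    have h1 := (hC.centralizer_of_comm hO hZ hc hc1 hy1 hyc.symm hcP).2.1
    unfold M at h1
    rwa [hW] at h1
  have hkey := card_eq hr0 hr1 hr2 hr5 hes hl hprod harith hco hcl
  -- all elements of order `r`
  have hall : ∀ x : Spor.Ly, orderOf x = r → Nat.card (centralizer ({x} : Set Spor.Ly)) = r ∧
      Nat.card (normalizer (zpowers x : Set Spor.Ly)) = r * n := by
    intro x hx
    obtain ⟨k, hk⟩ := exists_conj_mem hrq hco hx
    refine card_eq hr0 hr1 hr2 hr5 hes hl hprod harith hx fun y hy1 hyx => ?_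
    set z := k⁻¹ * x * k with hz
    have hzo : orderOf z = r := by
      rw [hz]
      have := MulEquiv.orderOf_eq (MulAut.conj k⁻¹) x
      rw [MulAut.conj_apply, inv_inv] at this
      rw [this, hx]
    have hzz : zpowers z = zpowers c := by
      apply Subgroup.eq_of_le_of_card_ge ((zpowers_le).2 hk)
      rw [Nat.card_zpowers, Nat.card_zpowers, hco, hzo]
    have hcz : c ∈ zpowers z := by rw [hzz]; exact mem_zpowers c
    obtain ⟨i, hi⟩ := hcz
    have hi' : z ^ i = c := hi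
    have h1 : (k⁻¹ * y * k) * c = c * (k⁻¹ * y * k) := by
      rw [← hi']
      have h2 : Commute (k⁻¹ * y * k) z := by
        show k⁻¹ * y * k * (k⁻¹ * x * k) = k⁻¹ * x * k * (k⁻¹ * y * k)
        calc _ = k⁻¹ * (y * x) * k := by group
          _ = k⁻¹ * (x * y) * k := by rw [hyx]
          _ = _ := by group
      exact (h2.zpow_right i).eq
    have h2 : k⁻¹ * y * k ≠ 1 := by
      intro h0
      apply hy1
      have e : y = k * (k⁻¹ * y * k) * k⁻¹ := by group
      rw [e, h0]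
      group
    have h3 := hcl _ h2 h1
    rw [← hzz] at h3
    intro g hg
    have h4 : k⁻¹ * g * k ∈ centralizer ({k⁻¹ * y * k} : Set Spor.Ly) := by
      rw [mem_centralizer_singleton_iff] at hg ⊢
      calc _ = k⁻¹ * (g * y) * k := by group
        _ = k⁻¹ * (y * g) * k := by rw [hg]
        _ = _ := by group
    have h5 := (mem_normalizer_iff.1 (h3 h4) z).1 (mem_zpowers z)
    refine H655.LySixtySeven.mem_norm_of ?_ (x := x) (g := g)
    obtain ⟨j, hj⟩ := h5
    have hj' : z ^ j = k⁻¹ * g * k * z * (k⁻¹ * g * k)⁻¹ := hj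
    refine ⟨j, ?_⟩
    show x ^ j = g * x * g⁻¹
    have e1 : z ^ j = k⁻¹ * x ^ j * k := by
      rw [hz]
      have := conj_zpow (i := j) (a := k⁻¹) (b := x)
      rwa [inv_inv] at this
    calc x ^ j = k * (k⁻¹ * x ^ j * k) * k⁻¹ := by group
      _ = k * (k⁻¹ * g * k * z * (k⁻¹ * g * k)⁻¹) * k⁻¹ := by rw [← e1, hj']
      _ = g * x * g⁻¹ := by rw [hz]; group
  have hfalse := false_of_moment hrq (fun x hx => (hall x hx).1) (fun x hx => (hall x hx).2) (D := 100) (by norm_num)
    deg_ly ht ht2 hy (by rw [hcard]; exact_mod_cast hnum) hC.toCC hc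
  exact hc1 hfalse

theorem row67 : CRow 67 Spor.Ly := by
  have : Fact (Nat.Prime 67) := ⟨by norm_num⟩
  refine crow_aux (r := 67) (n := 22) (es := [1, 2, 3, 6, 11, 22, 33, 66]) (l := [(3, 7), (7, 1), (11, 1), (31, 1), (37, 1)])
    (t := 0.20682) (y := 0.1813) (by norm_num) (by norm_num) (by norm_num) (by norm_num) ?_ ?_ ?_ arith67 (by norm_num)
    (by norm_num) (by norm_num) (by norm_num)
  · intro e he
    have h6 : e ∈ Nat.divisors 66 := Nat.mem_divisors.2 ⟨he, by norm_num⟩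
    have h7 : Nat.divisors 66 = {1, 2, 3, 6, 11, 22, 33, 66} := by decide +kernel
    rw [h7] at h6
    simpa using h6
  · intro q hq
    simp only [List.mem_cons, List.not_mem_nil, or_false] at hq
    rcases hq with rfl | rfl | rfl | rfl | rfl <;> norm_num
  · norm_num [H513.NilpTools.prodL]

theorem row37 : CRow 37 Spor.Ly := by
  have : Fact (Nat.Prime 37) := ⟨by norm_num⟩
  refine crow_aux (r := 37) (n := 18) (es := [1, 2, 3, 4, 6, 9, 12, 18, 36]) (l := [(3, 7), (7, 1), (11, 1), (31, 1), (67, 1)])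
    (t := 0.2262) (y := 0.1355) (by norm_num) (by norm_num) (by norm_num) (by norm_num) ?_ ?_ ?_ arith37 (by norm_num)
    (by norm_num) (by norm_num) (by norm_num)
  · intro e he
    have h6 : e ∈ Nat.divisors 36 := Nat.mem_divisors.2 ⟨he, by norm_num⟩
    have h7 : Nat.divisors 36 = {1, 2, 3, 4, 6, 9, 12, 18, 36} := by decide +kernel
    rw [h7] at h6
    simpa using h6
  · intro q hq
    simp only [List.mem_cons, List.not_mem_nil, or_false] at hq
    rcases hq with rfl | rfl | rfl | rfl | rfl <;> norm_num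
  · norm_num [H513.NilpTools.prodL]

/-- **The row of the Lyons group for the prime 67.** -/
theorem crow_ly_67 {G : Type*} [Group G] (h : Spor.IsoLy G) : CRow 67 G := by
  have : Fact (Nat.Prime 67) := ⟨by norm_num⟩
  obtain ⟨e⟩ := h
  exact row67.of_equiv e

/-- **The row of the Lyons group for the prime 37.** -/
theorem crow_ly_37 {G : Type*} [Group G] (h : Spor.IsoLy G) : CRow 37 G := by
  have : Fact (Nat.Prime 37) := ⟨by norm_num⟩
  obtain ⟨e⟩ := h
  exact row37.of_equiv e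

end Cfsg.Agent.H668.Ly
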