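import Cfsg.Agent.Characters.ClassMul
import Cfsg.Agent.H686.CharKit
import Cfsg.Agent.H668.ConstDiff

/-!
# The second moment of the number of commutators (helper668, S3828, task LY-37-67)

`G` finite, `c ∈ G` with `|C(c)| = p`, `X` a normal subset closed under inversion containing `C(c) ∖ 1`, such that
`#{g | g⁻¹ e g ∈ C(c) ∖ 1} = ν` for all `e ∈ X`.

* `card_Y` : `#{a | (a c a⁻¹)⁻¹ c ∈ X} = ∑ |χ(c)|² T_χ / χ(1)`, `T_χ = ∑_{e ∈ X} χ(e)`;
* `sum_normSq_T` : `∑ |T_χ|² = |X| |G|`;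
* `pairs` : `#{(g,h) | c^g c^{-h} ∈ C(c)} = |G| |C(c)| + ν Y`;
* `main_ineq` : if all commutators `c⁻¹ d⁻¹ c d` (`d ~ c`) lie in `X ∪ {1}` then
  `|G|² ≤ (1 + Y / p) (p |G| + ν Y)`.
-/

set_option autoImplicit false

namespace Cfsg.Agent.H668.Ly

open Subgroup Cfsg Cfsg.Agent.Characters.Core Cfsg.Agent.Characters.ClassMul Cfsg.Agent.Characters.Central
  Cfsg.Agent.H686.CharKit
open scoped ComplexConjugate

universe u

section

variable {G : Type u} [Group G] [Fintype G]

/-- `T_χ = ∑_{e ∈ X} χ(e)` -/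
noncomputable def T (X : Finset G) (χ : G → ℂ) : ℂ := ∑ e ∈ X, χ e

theorem sum_normSq_T [DecidableEq G] [Fintype (IrrCharacter G)] (X : Finset G) (hX : ∀ g x : G, x ∈ X → g * x * g⁻¹ ∈ X) :
    ∑ χ : IrrCharacter G, Complex.normSq (T X (χ : G → ℂ)) = (X.card : ℝ) * Nat.card G := by
  have hG : (Nat.card G : ℂ) ≠ 0 := by exact_mod_cast Nat.card_pos.ne'
  let f : G → ℂ := fun g => if g ∈ X then 1 else 0
  have hf : IsClassFunction G f := by
    intro g h
    have : h * g * h⁻¹ ∈ X ↔ g ∈ X := by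
      refine ⟨fun h1 => ?_, hX h g⟩
      have h2 := hX h⁻¹ _ h1
      have e : h⁻¹ * (h * g * h⁻¹) * h⁻¹⁻¹ = g := by group
      rwa [e] at h2
    simp only [f, this]
  have h1 := classInner_eq_sum hf hf
  have h2 : classInner f f = (Nat.card G : ℂ)⁻¹ * X.card := by
    rw [classInner_def]
    congr 1
    have : ∀ g : G, f g * conj (f g) = if g ∈ X then 1 else 0 := by
      intro g
      simp only [f]
      split_ifs <;> simp
    rw [Finset.sum_congr rfl fun g _ => this g]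
    simp
  have h3 : ∀ χ : IrrCharacter G, classInner f (χ : G → ℂ) = (Nat.card G : ℂ)⁻¹ * conj (T X (χ : G → ℂ)) := by
    intro χ
    rw [classInner_def]
    congr 1
    have : ∀ g : G, f g * conj ((χ : G → ℂ) g) = if g ∈ X then conj ((χ : G → ℂ) g) else 0 := by
      intro g
      simp only [f]
      split_ifs <;> simp
    rw [Finset.sum_congr rfl fun g _ => this g, T, map_sum]
    simp
  rw [h2] at h1
  have h4 : ∀ χ : IrrCharacter G, classInner f (χ : G → ℂ) * conj (classInner f (χ : G → ℂ)) =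
      (Nat.card G : ℂ)⁻¹ * (Nat.card G : ℂ)⁻¹ * (Complex.normSq (T X (χ : G → ℂ)) : ℂ) := by
    intro χ
    rw [h3 χ, map_mul, Complex.conj_conj, map_inv₀, Complex.conj_natCast, ← Complex.mul_conj]
    ring
  rw [Finset.sum_congr rfl fun χ _ => h4 χ, ← Finset.mul_sum] at h1
  have h5 : (X.card : ℂ) * Nat.card G = ∑ χ : IrrCharacter G, (Complex.normSq (T X (χ : G → ℂ)) : ℂ) := by
    field_simp at h1
    linear_combination h1
  exact_mod_cast h5.symm

/-- the bound of `T_χ` -/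
theorem norm_T_le [DecidableEq G] [Fintype (IrrCharacter G)] (X : Finset G) (hX : ∀ g x : G, x ∈ X → g * x * g⁻¹ ∈ X)
    {r : ℝ} (hr : 0 ≤ r) (h : (X.card : ℝ) * (Nat.card G - X.card) ≤ r ^ 2) {χ : IrrCharacter G}
    (hχ : χ ≠ ConstDiff.one G) : ‖T X (χ : G → ℂ)‖ ≤ r := by
  classical
  have h1 := sum_normSq_T X hX
  have h2 : Complex.normSq (T X (χ : G → ℂ)) + Complex.normSq (T X (ConstDiff.one G : G → ℂ)) ≤
      ∑ χ : IrrCharacter G, Complex.normSq (T X (χ : G → ℂ)) := by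
    rw [← Finset.sum_pair (f := fun χ : IrrCharacter G => Complex.normSq (T X (χ : G → ℂ))) hχ]
    exact Finset.sum_le_sum_of_subset_of_nonneg (Finset.subset_univ _) fun _ _ _ => Complex.normSq_nonneg _
  have h3 : T X (ConstDiff.one G : G → ℂ) = X.card := by
    rw [T, Finset.sum_congr rfl fun e _ => ConstDiff.one_apply e]
    simp
  rw [h3, h1, Complex.normSq_natCast] at h2
  have h4 : ‖T X (χ : G → ℂ)‖ ^ 2 ≤ r ^ 2 := by
    rw [← Complex.normSq_eq_norm_sq]
    nlinarith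
  exact abs_le_of_sq_le_sq' h4 hr |>.2

theorem sum_pairs_X [DecidableEq G] (X : Finset G) (hX : ∀ g x : G, x ∈ X → g * x * g⁻¹ ∈ X) (c : G) :
    ∑ e ∈ X, Nat.card {q : G × G // q.1 * c * q.1⁻¹ * (q.2 * e * q.2⁻¹) = c} =
      Nat.card G * (Finset.univ.filter fun a : G => (a * c * a⁻¹)⁻¹ * c ∈ X).card := by
  classical
  have h1 : ∀ e : G, Nat.card {q : G × G // q.1 * c * q.1⁻¹ * (q.2 * e * q.2⁻¹) = c} =
      ∑ b : G, ∑ a : G, if e = b⁻¹ * ((a * c * a⁻¹)⁻¹ * c) * b then 1 else 0 := by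
    intro e
    rw [Nat.card_eq_fintype_card, Fintype.card_subtype, Finset.card_filter, Fintype.sum_prod_type, Finset.sum_comm]
    refine Finset.sum_congr rfl fun b _ => Finset.sum_congr rfl fun a _ => ?_
    have : a * c * a⁻¹ * (b * e * b⁻¹) = c ↔ e = b⁻¹ * ((a * c * a⁻¹)⁻¹ * c) * b := by
      constructor
      · intro h
        have e1 : b⁻¹ * ((a * c * a⁻¹)⁻¹ * (a * c * a⁻¹ * (b * e * b⁻¹))) * b = e := by group
        rw [h] at e1
        exact e1.symm
      · rintro rfl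
        group
    simp only [this]
  simp only [h1]
  rw [Finset.sum_comm]
  have h2 : ∀ b : G, ∑ e ∈ X, ∑ a : G, (if e = b⁻¹ * ((a * c * a⁻¹)⁻¹ * c) * b then 1 else 0) =
      (Finset.univ.filter fun a : G => (a * c * a⁻¹)⁻¹ * c ∈ X).card := by
    intro b
    rw [Finset.sum_comm, Finset.card_filter]
    refine Finset.sum_congr rfl fun a _ => ?_
    rw [Finset.sum_ite_eq' X]
    have : b⁻¹ * ((a * c * a⁻¹)⁻¹ * c) * b ∈ X ↔ (a * c * a⁻¹)⁻¹ * c ∈ X := by
      constructor
      · intro h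
        have := hX b _ h
        have e : b * (b⁻¹ * ((a * c * a⁻¹)⁻¹ * c) * b) * b⁻¹ = (a * c * a⁻¹)⁻¹ * c := by group
        rwa [e] at this
      · intro h
        have := hX b⁻¹ _ h
        rwa [inv_inv] at this
    simp only [this]
  rw [Finset.sum_congr rfl fun b _ => h2 b, Finset.sum_const, Finset.card_univ, smul_eq_mul, Nat.card_eq_fintype_card]

theorem card_Y [DecidableEq G] [Fintype (IrrCharacter G)] (X : Finset G) (hX : ∀ g x : G, x ∈ X → g * x * g⁻¹ ∈ X) (c : G) :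
    ((Finset.univ.filter fun a : G => (a * c * a⁻¹)⁻¹ * c ∈ X).card : ℂ) =
      ∑ χ : IrrCharacter G, (Complex.normSq ((χ : G → ℂ) c) : ℂ) * T X (χ : G → ℂ) / (χ : G → ℂ) 1 := by
  have hG : (Nat.card G : ℂ) ≠ 0 := by exact_mod_cast Nat.card_pos.ne'
  have h1 := sum_pairs_X X hX c
  have h2 : (∑ e ∈ X, (Nat.card {q : G × G // q.1 * c * q.1⁻¹ * (q.2 * e * q.2⁻¹) = c} : ℂ)) =
      (Nat.card G : ℂ) * (Finset.univ.filter fun a : G => (a * c * a⁻¹)⁻¹ * c ∈ X).card := by
    exact_mod_cast h1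
  rw [Finset.sum_congr rfl fun e _ => card_conj_mul_conj c e c, ← Finset.mul_sum, Finset.sum_comm] at h2
  have h3 := mul_left_cancel₀ hG h2
  rw [← h3]
  refine Finset.sum_congr rfl fun χ _ => ?_
  rw [T, Finset.mul_sum, Finset.sum_div]
  refine Finset.sum_congr rfl fun e _ => ?_
  rw [← Complex.mul_conj]
  ring

/-- averaging over `G` -/
theorem avg [DecidableEq G] (X Z : Finset G) (hX : ∀ g x : G, x ∈ X → g * x * g⁻¹ ∈ X) (hZX : Z ⊆ X) {ν : ℕ}
    (hν : ∀ e ∈ X, (Finset.univ.filter fun g : G => g⁻¹ * e * g ∈ Z).card = ν) {F : G → ℂ} (hF : IsClassFunction G F) :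
    (Nat.card G : ℂ) * ∑ x ∈ Z, F x = ν * ∑ e ∈ X, F e := by
  have h1 : ∑ e ∈ X, ∑ g : G, (if g⁻¹ * e * g ∈ Z then F e else 0) = ν * ∑ e ∈ X, F e := by
    rw [Finset.mul_sum]
    refine Finset.sum_congr rfl fun e he => ?_
    rw [← Finset.sum_filter, Finset.sum_const, hν e he, nsmul_eq_mul]
  rw [← h1, Finset.sum_comm]
  have h2 : ∀ g : G, ∑ e ∈ X, (if g⁻¹ * e * g ∈ Z then F e else 0) = ∑ x ∈ Z, F x := by
    intro g
    rw [← Finset.sum_filter]
    refine Finset.sum_bij' (fun e _ => g⁻¹ * e * g) (fun x _ => g * x * g⁻¹) ?_ ?_ ?_ ?_ ?_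
    · intro e he
      exact (Finset.mem_filter.1 he).2
    · intro x hx
      have e : g⁻¹ * (g * x * g⁻¹) * g = x := by group
      exact Finset.mem_filter.2 ⟨hX g x (hZX hx), by rw [e]; exact hx⟩
    · intro e _
      group
    · intro x _
      group
    · intro e _
      have := hF e g⁻¹
      rw [inv_inv] at this
      exact this.symm
  rw [Finset.sum_congr rfl fun g _ => h2 g, Finset.sum_const, Finset.card_univ, nsmul_eq_mul, Nat.card_eq_fintype_card]

/-- the number of pairs -/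
theorem pairs [DecidableEq G] [Fintype (IrrCharacter G)] (X Z : Finset G) (hX : ∀ g x : G, x ∈ X → g * x * g⁻¹ ∈ X)
    (c : G) (hZ : ∀ x, x ∈ Z ↔ x ≠ 1 ∧ x * c = c * x) (hZX : Z ⊆ X) {ν : ℕ}
    (hν : ∀ e ∈ X, (Finset.univ.filter fun g : G => g⁻¹ * e * g ∈ Z).card = ν) :
    (Finset.univ.filter fun q : G × G => (q.1 * c * q.1⁻¹ * (q.2 * c⁻¹ * q.2⁻¹)) * c =
        c * (q.1 * c * q.1⁻¹ * (q.2 * c⁻¹ * q.2⁻¹))).card =
      Nat.card G * Nat.card (centralizer ({c} : Set G)) +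
        ν * (Finset.univ.filter fun a : G => (a * c * a⁻¹)⁻¹ * c ∈ X).card := by
  have hG : (Nat.card G : ℂ) ≠ 0 := by exact_mod_cast Nat.card_pos.ne'
  have h1Z : (1 : G) ∉ Z := fun h => ((hZ 1).1 h).1 rfl
  have h1 : (Finset.univ.filter fun q : G × G => (q.1 * c * q.1⁻¹ * (q.2 * c⁻¹ * q.2⁻¹)) * c =
        c * (q.1 * c * q.1⁻¹ * (q.2 * c⁻¹ * q.2⁻¹))).card =
      ∑ x ∈ insert 1 Z, Nat.card {q : G × G // q.1 * c * q.1⁻¹ * (q.2 * c⁻¹ * q.2⁻¹) = x} := by
    rw [Finset.card_eq_sum_card_fiberwise (t := insert 1 Z)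
      (f := fun q : G × G => q.1 * c * q.1⁻¹ * (q.2 * c⁻¹ * q.2⁻¹))]
    · refine Finset.sum_congr rfl fun x hx => ?_
      rw [Nat.card_eq_fintype_card, Fintype.card_subtype, Finset.filter_filter]
      congr 1
      ext q
      simp only [Finset.mem_filter, Finset.mem_univ, true_and]
      constructor
      · rintro ⟨_, h⟩
        exact h
      · intro h
        refine ⟨?_, h⟩
        rw [h]
        rcases Finset.mem_insert.1 hx with rfl | hx
        · rw [one_mul, mul_one]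
        · exact ((hZ x).1 hx).2
    · intro q hq
      have hq' := (Finset.mem_filter.1 hq).2
      simp only [Finset.coe_insert, Set.mem_insert_iff, Finset.mem_coe]
      by_cases h : q.1 * c * q.1⁻¹ * (q.2 * c⁻¹ * q.2⁻¹) = 1
      · exact Or.inl h
      · exact Or.inr ((hZ _).2 ⟨h, hq'⟩)
  have h2 : ((∑ x ∈ insert 1 Z, Nat.card {q : G × G // q.1 * c * q.1⁻¹ * (q.2 * c⁻¹ * q.2⁻¹) = x} : ℕ) : ℂ) =
      (Nat.card G : ℂ) * Nat.card (centralizer ({c} : Set G)) +
        ν * (Finset.univ.filter fun a : G => (a * c * a⁻¹)⁻¹ * c ∈ X).card := by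
    rw [Nat.cast_sum, Finset.sum_congr rfl fun x _ => card_conj_mul_conj c c⁻¹ x, ← Finset.mul_sum, Finset.sum_comm]
    have h3 : ∀ χ : IrrCharacter G, ∑ x ∈ insert 1 Z, (χ : G → ℂ) c * (χ : G → ℂ) c⁻¹ * conj ((χ : G → ℂ) x) /
        (χ : G → ℂ) 1 = (Complex.normSq ((χ : G → ℂ) c) : ℂ) +
        (Complex.normSq ((χ : G → ℂ) c) : ℂ) * conj (∑ x ∈ Z, (χ : G → ℂ) x) / (χ : G → ℂ) 1 := by
      intro χ
      have hne : (χ : G → ℂ) 1 ≠ 0 := irr_one_ne_zero χ.2
      have hr : conj ((χ : G → ℂ) 1) = (χ : G → ℂ) 1 := by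
        rw [← isCharacter_apply_inv (isIrr_isCharacter χ.2), inv_one]
      rw [Finset.sum_insert h1Z, isCharacter_apply_inv (isIrr_isCharacter χ.2) c, hr, Complex.mul_conj,
        mul_div_assoc, div_self hne, mul_one, map_sum, Finset.mul_sum, Finset.sum_div]
    rw [Finset.sum_congr rfl fun χ _ => h3 χ, Finset.sum_add_distrib, mul_add]
    congr 1
    · rw [← Complex.ofReal_sum, sum_normSq]
      norm_num
    · have h4 : ((Finset.univ.filter fun a : G => (a * c * a⁻¹)⁻¹ * c ∈ X).card : ℂ) =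
          conj ((Finset.univ.filter fun a : G => (a * c * a⁻¹)⁻¹ * c ∈ X).card : ℂ) := by
        rw [Complex.conj_natCast]
      rw [h4, card_Y X hX c, map_sum, Finset.mul_sum, Finset.mul_sum]
      refine Finset.sum_congr rfl fun χ _ => ?_
      have hr : conj ((χ : G → ℂ) 1) = (χ : G → ℂ) 1 := by
        rw [← isCharacter_apply_inv (isIrr_isCharacter χ.2), inv_one]
      have h5 := avg X Z hX hZX hν (isIrr_isClassFunction χ.2)
      have h6 := congrArg conj h5
      rw [map_mul, map_mul, Complex.conj_natCast, Complex.conj_natCast] at h6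
      rw [map_div₀, map_mul, hr, Complex.conj_ofReal, T]
      calc _ = (Complex.normSq ((χ : G → ℂ) c) : ℂ) * ((Nat.card G : ℂ) * conj (∑ x ∈ Z, (χ : G → ℂ) x)) /
            (χ : G → ℂ) 1 := by ring
        _ = _ := by rw [h6]; ring
  rw [h1]
  exact_mod_cast h2

/-- **The main inequality.** -/
theorem main_ineq [DecidableEq G] [Fintype (IrrCharacter G)] (X Z : Finset G)
    (hX : ∀ g x : G, x ∈ X → g * x * g⁻¹ ∈ X) (hXi : ∀ x ∈ X, x⁻¹ ∈ X)
    (c : G) (hZ : ∀ x, x ∈ Z ↔ x ≠ 1 ∧ x * c = c * x) (hZX : Z ⊆ X) {ν : ℕ}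
    (hν : ∀ e ∈ X, (Finset.univ.filter fun g : G => g⁻¹ * e * g ∈ Z).card = ν)
    (hcomm : ∀ g : G, c⁻¹ * (g * c * g⁻¹)⁻¹ * c * (g * c * g⁻¹) = 1 ∨
      c⁻¹ * (g * c * g⁻¹)⁻¹ * c * (g * c * g⁻¹) ∈ X) :
    ∃ Y : ℕ, Nat.card (centralizer ({c} : Set G)) * Y =
        (Finset.univ.filter fun a : G => (a * c * a⁻¹)⁻¹ * c ∈ X).card ∧
      Nat.card G ^ 2 ≤ (1 + Y) * (Nat.card (centralizer ({c} : Set G)) * (Nat.card G + ν * Y)) := by
  classical
  set A : Finset G := Finset.univ.filter fun u : G => IsConj c u ∧ u⁻¹ * c ∈ X with hA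
  have h0 : Nat.card (centralizer ({c} : Set G)) * A.card =
      (Finset.univ.filter fun a : G => (a * c * a⁻¹)⁻¹ * c ∈ X).card := by
    rw [Finset.card_eq_sum_card_fiberwise (s := Finset.univ.filter fun a : G => (a * c * a⁻¹)⁻¹ * c ∈ X) (t := A)
      (f := fun a : G => a * c * a⁻¹)]
    · rw [mul_comm, ← smul_eq_mul, ← Finset.sum_const]
      refine Finset.sum_congr rfl fun u hu => ?_
      rw [hA, Finset.mem_filter] at hu
      rw [← card_fiber_conj c u hu.2.1, Nat.card_eq_fintype_card, Fintype.card_subtype, Finset.filter_filter]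
      congr 1
      ext a
      simp only [Finset.mem_filter, Finset.mem_univ, true_and]
      constructor
      · intro h
        exact ⟨by rw [h]; exact hu.2.2, h⟩
      · rintro ⟨-, h⟩
        exact h
    · intro a ha
      have ha' := (Finset.mem_filter.1 ha).2
      exact Finset.mem_coe.2 (Finset.mem_filter.2 ⟨Finset.mem_univ _, isConj_iff.2 ⟨a, rfl⟩, ha'⟩)
  refine ⟨A.card, h0, ?_⟩
  set F : G → G := fun g => (g * c * g⁻¹)⁻¹ * c * (g * c * g⁻¹) with hF
  have hpair : (Finset.univ.filter fun q : G × G => F q.1 = F q.2).card =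
      Nat.card (centralizer ({c} : Set G)) * (Nat.card G + ν * A.card) := by
    have h1 := pairs X Z hX c hZ hZX hν
    rw [← h0] at h1
    have h2 : (Finset.univ.filter fun q : G × G => F q.1 = F q.2) =
        (Finset.univ.filter fun q : G × G => (q.1 * c * q.1⁻¹ * (q.2 * c⁻¹ * q.2⁻¹)) * c =
        c * (q.1 * c * q.1⁻¹ * (q.2 * c⁻¹ * q.2⁻¹))) := by
      ext q
      simp only [Finset.mem_filter, Finset.mem_univ, true_and, hF]
      set d := q.1 * c * q.1⁻¹ with hd
      have he : q.2 * c⁻¹ * q.2⁻¹ = (q.2 * c * q.2⁻¹)⁻¹ := by group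
      rw [he]
      set e := q.2 * c * q.2⁻¹ with he
      constructor
      · intro h
        calc d * e⁻¹ * c = d * (e⁻¹ * c * e) * e⁻¹ := by group
          _ = d * (d⁻¹ * c * d) * e⁻¹ := by rw [h]
          _ = c * (d * e⁻¹) := by group
      · intro h
        calc d⁻¹ * c * d = d⁻¹ * (c * (d * e⁻¹)) * e := by group
          _ = d⁻¹ * (d * e⁻¹ * c) * e := by rw [h]
          _ = e⁻¹ * c * e := by group
    rw [h2, h1]
    ring
  have himg : (Finset.univ.image F).card ≤ 1 + A.card := by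
    have h1 : Finset.univ.image F ⊆ insert c A := by
      intro u hu
      obtain ⟨g, -, rfl⟩ := Finset.mem_image.1 hu
      have e1 : c⁻¹ * F g = c⁻¹ * (g * c * g⁻¹)⁻¹ * c * (g * c * g⁻¹) := by simp only [hF]; group
      rcases hcomm g with h | h
      · rw [← e1] at h
        exact Finset.mem_insert.2 (Or.inl (inv_mul_eq_one.1 h).symm)
      · rw [← e1] at h
        have h2 := hXi _ h
        rw [mul_inv_rev, inv_inv] at h2
        refine Finset.mem_insert.2 (Or.inr (Finset.mem_filter.2 ⟨Finset.mem_univ _, ?_, h2⟩))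
        refine isConj_iff.2 ⟨(g * c * g⁻¹)⁻¹, ?_⟩
        simp only [hF, inv_inv]
    refine (Finset.card_le_card h1).trans ?_
    rw [add_comm]
    exact Finset.card_insert_le _ _
  have hcs : Nat.card G ^ 2 ≤ (Finset.univ.image F).card * (Finset.univ.filter fun q : G × G => F q.1 = F q.2).card := by
    have h1 : Nat.card G = ∑ u ∈ Finset.univ.image F, (Finset.univ.filter fun g : G => F g = u).card := by
      rw [Nat.card_eq_fintype_card, ← Finset.card_univ]
      exact Finset.card_eq_sum_card_image F _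
    have h2 : (Finset.univ.filter fun q : G × G => F q.1 = F q.2).card =
        ∑ u ∈ Finset.univ.image F, (Finset.univ.filter fun g : G => F g = u).card ^ 2 := by
      rw [Finset.card_filter, Fintype.sum_prod_type]
      rw [← Finset.sum_fiberwise_of_maps_to (t := Finset.univ.image F) (g := F)
        (fun g _ => Finset.mem_image_of_mem F (Finset.mem_univ g))]
      refine Finset.sum_congr rfl fun u _ => ?_
      rw [pow_two, ← smul_eq_mul, ← Finset.sum_const]
      refine Finset.sum_congr rfl fun g hg => ?_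
      rw [← Finset.card_filter]
      have := (Finset.mem_filter.1 hg).2
      congr 1
      ext h
      simp only [Finset.mem_filter, Finset.mem_univ, true_and, this]
      exact eq_comm
    rw [h2]
    nth_rewrite 1 [h1]
    exact sq_sum_le_card_mul_sum_sq
  rw [hpair] at hcs
  exact hcs.trans (Nat.mul_le_mul_right _ himg)

end

end Cfsg.Agent.H668.Ly
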